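import Mathlib

/-!
# Norms in a quadratic extension of finite fields (helper204)

`|F| = q` odd, `K / F` finite of degree `2 d`, `Q = q ^ d`.
* `exists_pow_succ` : `z ^ Q = z`, `z ≠ 0`: `z = k ^ (Q + 1)`;
* `exists_torus_gen` : `t` of order `Q + 1`;
* `norm_of_pow` : `k ^ (Q + 1) = c ∈ F` has norm `c ^ d`;
* `card_pow_fiber` : for a linear `l : K → F` not zero on the fixed field of `k ↦ k ^ Q`:
  `#{k ≠ 0 | l (k ^ (Q + 1)) = a} = (Q + 1) m`, `m` odd iff `a ≠ 0`.
-/

set_option autoImplicit false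

namespace Cfsg.Agent.H204

open Module

section Cyclic

variable {G : Type*} [CommGroup G] [IsCyclic G] [Finite G]

/-- in a cyclic group of order `a b`, the elements with `g ^ a = 1` are the `b`-th powers -/
theorem exists_pow_of_pow {a b : ℕ} (hG : Nat.card G = a * b) (ha : 0 < a) {g : G}
    (hg : g ^ a = 1) : ∃ h : G, h ^ b = g := by
  obtain ⟨w, hw⟩ := IsCyclic.exists_generator (α := G)
  obtain ⟨i, hi⟩ := (Submonoid.mem_powers_iff _ _).1 ((mem_powers_iff_mem_zpowers).2 (hw g))
  have ho : orderOf w = a * b := by rw [← hG]; exact orderOf_eq_card_of_forall_mem_zpowers hw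
  have h1 : w ^ (i * a) = 1 := by rw [pow_mul, hi, hg]
  have h2 : a * b ∣ i * a := by rw [← ho]; exact orderOf_dvd_of_pow_eq_one h1
  rw [mul_comm a b] at h2
  obtain ⟨e, he⟩ := Nat.dvd_of_mul_dvd_mul_right ha h2
  exact ⟨w ^ e, by rw [← hi, he, ← pow_mul, mul_comm]⟩

theorem exists_orderOf {a b : ℕ} (hG : Nat.card G = a * b) : ∃ g : G, orderOf g = b := by
  obtain ⟨w, hw⟩ := IsCyclic.exists_generator (α := G)
  have ho : orderOf w = a * b := by rw [← hG]; exact orderOf_eq_card_of_forall_mem_zpowers hw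
  have hpos : 0 < a * b := by rw [← hG]; exact Nat.card_pos
  have ha : a ≠ 0 := by rintro rfl; simp at hpos
  refine ⟨w ^ a, ?_⟩
  rw [orderOf_pow, ho, Nat.gcd_eq_right (Dvd.intro _ rfl), Nat.mul_div_cancel_left _ (Nat.pos_of_ne_zero ha)]

theorem card_pow_fiber_group [Fintype G] [DecidableEq G] {a b : ℕ} (hG : Nat.card G = a * b)
    (ha : 0 < a) {g : G} (hg : g ^ a = 1) :
    (Finset.univ.filter fun x : G => x ^ b = g).card = b := by
  obtain ⟨h, hh⟩ := exists_pow_of_pow hG ha hg
  have h1 := MonoidHom.card_fiber_eq_of_mem_range (powMonoidHom b : G →* G) (x := g) (y := 1)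
    ⟨h, hh⟩ ⟨1, one_pow b⟩
  have h2 : (Finset.univ.filter fun x : G => x ^ b = g).card =
      (Finset.univ.filter fun x : G => x ^ b = 1).card := h1
  rw [h2]
  have h3 := IsCyclic.card_powMonoidHom_ker (G := G) b
  rw [hG, Nat.gcd_eq_right (Dvd.intro_left _ rfl)] at h3
  conv_rhs => rw [← h3]
  rw [Nat.card_eq_fintype_card, Fintype.card_subtype]
  congr 1
  ext x
  rw [Finset.mem_filter, Finset.mem_filter, MonoidHom.mem_ker]
  rfl

end Cyclic

section Field

variable {F : Type*} [Field F] [Fintype F] {K : Type*} [Field K] [Algebra F K] [Finite K] {d : ℕ}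

theorem card_K (hK : finrank F K = 2 * d) :
    Nat.card K = Fintype.card F ^ d * Fintype.card F ^ d := by
  rw [Module.natCard_eq_pow_finrank (K := F), hK, Nat.card_eq_fintype_card, two_mul, pow_add]

theorem card_Kx (hK : finrank F K = 2 * d) :
    Nat.card Kˣ = (Fintype.card F ^ d - 1) * (Fintype.card F ^ d + 1) := by
  rw [Nat.card_units, card_K hK, Nat.sub_mul, one_mul, mul_add, mul_one]
  omega

theorem one_lt_Q (hd : 0 < d) : 1 < Fintype.card F ^ d :=
  Nat.one_lt_pow (by omega) Fintype.one_lt_card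

omit [Algebra F K] [Finite K] in
theorem unit_pow_sub_one {z : Kˣ} (hz : (z : K) ^ (Fintype.card F ^ d) = z) :
    z ^ (Fintype.card F ^ d - 1) = 1 := by
  have h1 : 0 < Fintype.card F ^ d := pow_pos Fintype.card_pos d
  have h2 : z ^ (Fintype.card F ^ d) = z := Units.ext hz
  have h3 : z ^ (Fintype.card F ^ d - 1) * z = z := by
    rw [← pow_succ, Nat.sub_add_cancel h1, h2]
  exact mul_eq_right.1 h3

theorem exists_pow_succ (hK : finrank F K = 2 * d) (hd : 0 < d) {z : K} (hz0 : z ≠ 0)
    (hz : z ^ (Fintype.card F ^ d) = z) : ∃ k : K, k ^ (Fintype.card F ^ d + 1) = z := by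
  have h1 := one_lt_Q (F := F) hd
  obtain ⟨k, hk⟩ := exists_pow_of_pow (G := Kˣ) (card_Kx hK) (by omega) (g := Units.mk0 z hz0)
    (unit_pow_sub_one (by exact hz))
  exact ⟨k, by rw [← Units.val_pow_eq_pow_val, hk, Units.val_mk0]⟩

omit [Finite K] in
theorem algebraMap_pow_card (c : F) (d : ℕ) :
    (algebraMap F K c) ^ (Fintype.card F ^ d) = algebraMap F K c := by
  rw [← map_pow, FiniteField.pow_card_pow]

theorem exists_torus_gen (hK : finrank F K = 2 * d) :
    ∃ t : K, t ^ (Fintype.card F ^ d + 1) = 1 ∧ ∀ j : ℕ, t ^ j = 1 ↔ Fintype.card F ^ d + 1 ∣ j := by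
  obtain ⟨t, ht⟩ := exists_orderOf (G := Kˣ) (card_Kx hK)
  have h1 : ∀ j : ℕ, (t : K) ^ j = 1 ↔ Fintype.card F ^ d + 1 ∣ j := by
    intro j
    rw [← ht, orderOf_dvd_iff_pow_eq_one, ← Units.val_pow_eq_pow_val, Units.val_eq_one]
  exact ⟨t, (h1 _).2 dvd_rfl, h1⟩

theorem norm_of_pow (hK : finrank F K = 2 * d) {k : K} {c : F}
    (hk : k ^ (Fintype.card F ^ d + 1) = algebraMap F K c) : Algebra.norm F k = c ^ d := by
  apply (algebraMap F K).injective
  rw [FiniteField.algebraMap_norm_eq_prod_pow, hK, two_mul, Finset.prod_range_add,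
    ← Finset.prod_mul_distrib, Nat.card_eq_fintype_card]
  have h1 : ∀ i ∈ Finset.range d, k ^ Fintype.card F ^ i * k ^ Fintype.card F ^ (d + i) =
      algebraMap F K c := by
    intro i _
    rw [pow_add, pow_mul, ← mul_pow, mul_comm k, ← pow_succ, hk, algebraMap_pow_card]
  rw [Finset.prod_congr rfl h1, Finset.prod_const, Finset.card_range, map_pow]

/-- the fixed field of `k ↦ k ^ q ^ d`, as a subspace -/
def fixedSub (F : Type*) [Field F] [Fintype F] (K : Type*) [Field K] [Algebra F K] (d : ℕ) :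
    Submodule F K :=
  LinearMap.ker (((FiniteField.frobeniusAlgHom F K) ^ d).toLinearMap - LinearMap.id)

omit [Finite K] in
theorem mem_fixedSub {k : K} : k ∈ fixedSub F K d ↔ k ^ (Fintype.card F ^ d) = k := by
  rw [fixedSub, LinearMap.mem_ker, LinearMap.sub_apply, sub_eq_zero, LinearMap.id_apply,
    AlgHom.toLinearMap_apply, AlgHom.coe_pow, FiniteField.coe_frobeniusAlgHom, pow_iterate]

theorem odd_card_module (ho : Odd (Fintype.card F)) (V : Type*) [AddCommGroup V] [Module F V]
    [Finite V] : Odd (Nat.card V) := by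
  have : Module.Finite F V := Module.Finite.of_finite
  rw [Module.natCard_eq_pow_finrank (K := F), Nat.card_eq_fintype_card]
  exact ho.pow

/-- the fibres of a nonzero linear form have odd size -/
theorem odd_card_fiber (ho : Odd (Fintype.card F)) {V : Type*} [AddCommGroup V] [Module F V]
    [Finite V] (l : V →ₗ[F] F) (hl : l ≠ 0) (a : F) : Odd (Nat.card {v : V // l v = a}) := by
  obtain ⟨v₀, hv₀⟩ := LinearMap.surjective hl a
  have e : {v : V // l v = a} ≃ LinearMap.ker l :=
    { toFun := fun v => ⟨v.1 - v₀, by rw [LinearMap.mem_ker, map_sub, v.2, hv₀, sub_self]⟩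
      invFun := fun v => ⟨v.1 + v₀, by rw [map_add, LinearMap.mem_ker.1 v.2, hv₀, zero_add]⟩
      left_inv := fun v => Subtype.ext (sub_add_cancel _ _)
      right_inv := fun v => Subtype.ext (add_sub_cancel_right _ _) }
  rw [Nat.card_congr e]
  exact odd_card_module ho _

omit [Algebra F K] [Finite K] in
theorem unit_pow_of_pow {z : Kˣ} (hz : z ^ (Fintype.card F ^ d - 1) = 1) :
    (z : K) ^ (Fintype.card F ^ d) = z := by
  have h1 : 0 < Fintype.card F ^ d := pow_pos Fintype.card_pos d
  have h2 : z ^ (Fintype.card F ^ d) = z := by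
    have h3 : z ^ (Fintype.card F ^ d - 1) * z = z := by rw [hz, one_mul]
    rwa [← pow_succ, Nat.sub_add_cancel h1] at h3
  rw [← Units.val_pow_eq_pow_val, h2]

theorem card_pow_fiber (ho : Odd (Fintype.card F)) (hK : finrank F K = 2 * d) (hd : 0 < d)
    (l : K →ₗ[F] F) (hl : ∃ z ∈ fixedSub F K d, l z ≠ 0) (a : F) :
    ∃ m, Nat.card {k : K // k ≠ 0 ∧ l (k ^ (Fintype.card F ^ d + 1)) = a} =
      (Fintype.card F ^ d + 1) * m ∧ (Odd m ↔ a ≠ 0) := by
  classical
  have := Fintype.ofFinite K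
  set Q := Fintype.card F ^ d with hQ
  have h1Q : 1 < Q := one_lt_Q hd
  have hG : Nat.card Kˣ = (Q - 1) * (Q + 1) := card_Kx hK
  let S : Finset Kˣ := Finset.univ.filter fun x => l ((x : K) ^ (Q + 1)) = a
  let T : Finset Kˣ := Finset.univ.filter fun z => z ^ (Q - 1) = 1 ∧ l z = a
  have hS : Nat.card {k : K // k ≠ 0 ∧ l (k ^ (Q + 1)) = a} = S.card := by
    have e : {k : K // k ≠ 0 ∧ l (k ^ (Q + 1)) = a} ≃ {x : Kˣ // x ∈ S} :=
      { toFun := fun k => ⟨Units.mk0 k.1 k.2.1, Finset.mem_filter.2 ⟨Finset.mem_univ _, k.2.2⟩⟩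
        invFun := fun x => ⟨x.1, x.1.ne_zero, (Finset.mem_filter.1 x.2).2⟩
        left_inv := fun k => rfl
        right_inv := fun x => Subtype.ext (Units.ext rfl) }
    rw [Nat.card_congr e, Nat.card_eq_fintype_card, Fintype.card_coe]
  have hST : S.card = (Q + 1) * T.card := by
    have h1 := Finset.card_eq_sum_card_fiberwise (s := S) (f := fun x => x ^ (Q + 1)) (t := T)
      (by
        intro x hx
        have hx' := (Finset.mem_filter.1 (Finset.mem_coe.1 hx)).2
        refine Finset.mem_coe.2 (Finset.mem_filter.2 ⟨Finset.mem_univ _, ?_, ?_⟩)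
        · rw [← pow_mul, mul_comm, ← hG]
          exact pow_card_eq_one'
        · rw [Units.val_pow_eq_pow_val]
          exact hx')
    rw [h1, Finset.sum_congr rfl (g := fun _ => Q + 1), Finset.sum_const, smul_eq_mul, mul_comm]
    intro z hz
    rw [Finset.mem_filter] at hz
    have h2 := card_pow_fiber_group hG (by omega) hz.2.1
    refine Eq.trans ?_ h2
    congr 1
    ext x
    rw [Finset.mem_filter, Finset.mem_filter, Finset.mem_filter]
    constructor
    · rintro ⟨-, h⟩
      exact ⟨Finset.mem_univ _, h⟩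
    · rintro ⟨-, h⟩
      refine ⟨⟨Finset.mem_univ _, ?_⟩, h⟩
      rw [← Units.val_pow_eq_pow_val, h]
      exact hz.2.2
  -- parity of `T`
  let l₀ : fixedSub F K d →ₗ[F] F := l ∘ₗ (fixedSub F K d).subtype
  have hl₀ : l₀ ≠ 0 := by
    intro h
    obtain ⟨z, hz, hz'⟩ := hl
    exact hz' (LinearMap.congr_fun h ⟨z, hz⟩)
  have hodd := odd_card_fiber ho l₀ hl₀ a
  let T' : Finset K := Finset.univ.filter fun z => z ^ Q = z ∧ l z = a
  have hT' : Nat.card {v : fixedSub F K d // l₀ v = a} = T'.card := by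
    have e : {v : fixedSub F K d // l₀ v = a} ≃ {x : K // x ∈ T'} :=
      { toFun := fun v => ⟨v.1.1, Finset.mem_filter.2 ⟨Finset.mem_univ _, mem_fixedSub.1 v.1.2, v.2⟩⟩
        invFun := fun x => ⟨⟨x.1, mem_fixedSub.2 (Finset.mem_filter.1 x.2).2.1⟩,
          (Finset.mem_filter.1 x.2).2.2⟩
        left_inv := fun k => rfl
        right_inv := fun x => rfl }
    rw [Nat.card_congr e, Nat.card_eq_fintype_card, Fintype.card_coe]
  rw [hT'] at hodd
  have hTT : T'.card = T.card + if a = 0 then 1 else 0 := by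
    have h2 : (T'.filter fun z => z ≠ 0).card = T.card := by
      symm
      refine Finset.card_bij (fun x _ => (x : K)) ?_ ?_ ?_
      · intro x hx
        have hx' := (Finset.mem_filter.1 hx).2
        exact Finset.mem_filter.2 ⟨Finset.mem_filter.2 ⟨Finset.mem_univ _, unit_pow_of_pow hx'.1,
          hx'.2⟩, x.ne_zero⟩
      · intro x _ y _ h
        exact Units.ext h
      · intro z hz
        obtain ⟨hz1, hz0⟩ := Finset.mem_filter.1 hz
        have hz' := (Finset.mem_filter.1 hz1).2
        exact ⟨Units.mk0 z hz0, Finset.mem_filter.2 ⟨Finset.mem_univ _, unit_pow_sub_one hz'.1,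
          hz'.2⟩, rfl⟩
    have h3 : (T'.filter fun z => ¬ z ≠ 0).card = if a = 0 then 1 else 0 := by
      split_ifs with ha
      · rw [Finset.card_eq_one]
        refine ⟨0, ?_⟩
        ext z
        rw [Finset.mem_filter, Finset.mem_filter, Finset.mem_singleton]
        constructor
        · rintro ⟨-, h⟩
          exact not_not.1 h
        · rintro rfl
          refine ⟨⟨Finset.mem_univ _, ?_, ?_⟩, not_not.2 rfl⟩
          · exact zero_pow (by omega)
          · rw [map_zero, ha]
      · rw [Finset.card_eq_zero, Finset.filter_eq_empty_iff]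
        intro z hz h
        rw [not_not] at h
        have hz' := (Finset.mem_filter.1 hz).2.2
        rw [h, map_zero] at hz'
        exact ha hz'.symm
    rw [← h2, ← h3, Finset.card_filter_add_card_filter_not]
  refine ⟨T.card, by rw [hS, hST], ?_⟩
  rw [hTT] at hodd
  by_cases ha : a = 0
  · rw [if_pos ha] at hodd
    simp only [ha, ne_eq, not_true_eq_false, iff_false]
    intro h
    exact (Nat.not_odd_iff_even.2 (h.add_odd odd_one)) hodd
  · rw [if_neg ha, add_zero] at hodd
    exact ⟨fun _ => ha, fun _ => hodd⟩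

end Field

end Cfsg.Agent.H204
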