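import Mathlib
import Cfsg.Agent.H204.FieldAct

/-!
# Irreducible isometries (helper204)

`U` with a symmetric nondegenerate form `B` over a finite field, `s` an irreducible isometry with `s² ≠ 1`, `K = F[s]`.
* `exists_conj` : `|K| = q ^ (2 d)`, `0 < d`, `B (φ k x) y = B x (φ (k ^ q ^ d) y)`;
* `exists_pow_eq` : the elements `c ∈ F`, `c ≠ 0`, are `(q ^ d + 1)`-th powers in `K`;
* `det_of_pow` : if `k ^ (q ^ d + 1) = c` then `det (φ k) = c ^ d`.
-/

set_option autoImplicit false

namespace Cfsg.Agent.H204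

open Module Polynomial

universe u v

variable {F : Type u} {U : Type v} [Field F] [AddCommGroup U] [Module F U]

section Conj

variable {s : Module.End F U} {K : Type u} [Field K] [Algebra F K]
  {B : LinearMap.BilinForm F U}

theorem zeta_ne_zero [Nontrivial U] (D : FA s K) (hs : Function.Injective s) : D.ζ ≠ 0 := by
  intro h
  obtain ⟨x, hx⟩ := exists_ne (0 : U)
  have h1 : s x = 0 := by rw [← D.hζ, h, map_zero, LinearMap.zero_apply]
  exact hx (hs (by rw [h1, map_zero]))

theorem exists_conj_elt [Nontrivial U] (D : FA s K) (hs : Function.Injective s)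
    (hB : Smi B 1 s) (k : K) : ∃ k' : K, ∀ x y, B (D.φ k x) y = B x (D.φ k' y) := by
  obtain ⟨f, rfl⟩ := D.gen k
  have h0 := zeta_ne_zero D hs
  have h1 : ∀ x y, B (D.φ D.ζ x) y = B x (D.φ D.ζ⁻¹ y) := by
    intro x y
    have h2 : y = D.φ D.ζ (D.φ D.ζ⁻¹ y) := by
      rw [← Module.End.mul_apply, ← map_mul, mul_inv_cancel₀ h0, map_one]; rfl
    conv_lhs => rw [h2]
    rw [D.hζ, hB, one_mul]
  have h3 : ∀ (n : ℕ) x y, B (D.φ (D.ζ ^ n) x) y = B x (D.φ (D.ζ⁻¹ ^ n) y) := by
    intro n
    induction n with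
    | zero => intro x y; rw [pow_zero, pow_zero, map_one]; rfl
    | succ n ih =>
      intro x y
      rw [pow_succ, map_mul, Module.End.mul_apply, ih, h1, pow_succ', map_mul, Module.End.mul_apply]
  induction f using Polynomial.induction_on' with
  | add f g hf hg =>
    obtain ⟨a, ha⟩ := hf
    obtain ⟨b, hb⟩ := hg
    refine ⟨a + b, fun x y => ?_⟩
    rw [map_add, map_add, map_add, LinearMap.add_apply, LinearMap.add_apply, map_add, map_add,
      LinearMap.add_apply, ha, hb]
  | monomial n a =>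
    refine ⟨a • D.ζ⁻¹ ^ n, fun x y => ?_⟩
    rw [aeval_monomial, ← Algebra.smul_def, map_smul, map_smul, LinearMap.smul_apply,
      LinearMap.smul_apply, map_smul, map_smul, LinearMap.smul_apply, h3]

theorem phi_eq_of (hn : Nd B) (hsy : Sy B) {f g : Module.End F U}
    (h : ∀ x y, B x (f y) = B x (g y)) : f = g := by
  ext y
  rw [← sub_eq_zero]
  apply hn
  intro x
  rw [hsy, map_sub, h, sub_self]

/-- the conjugation of `K` -/
theorem exists_conj_hom [Nontrivial U] (D : FA s K) (hs : Function.Injective s)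
    (hn : Nd B) (hsy : Sy B) (hB : Smi B 1 s) :
    ∃ τ : K →ₐ[F] K, (∀ k x y, B (D.φ k x) y = B x (D.φ (τ k) y)) ∧ τ D.ζ = D.ζ⁻¹ := by
  choose t ht using exists_conj_elt D hs hB
  have hinj := D.phi_inj
  have huniq : ∀ {k k' : K}, (∀ x y, B (D.φ k x) y = B x (D.φ k' y)) → t k = k' := by
    intro k k' h
    apply hinj
    apply phi_eq_of hn hsy
    intro x y
    rw [← ht, h]
  let τ : K →ₐ[F] K := 
    { toFun := t
      map_one' := huniq fun x y => by rw [map_one]; rfl
      map_mul' := fun a b => huniq fun x y => by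
        rw [mul_comm a b, map_mul, Module.End.mul_apply, ht, ht, map_mul, Module.End.mul_apply]
      map_zero' := huniq fun x y => by
        rw [map_zero, LinearMap.zero_apply, LinearMap.zero_apply, map_zero, map_zero,
          LinearMap.zero_apply]
      map_add' := fun a b => huniq fun x y => by
        rw [map_add, map_add, LinearMap.add_apply, LinearMap.add_apply, map_add,
          LinearMap.add_apply, map_add, ht, ht]
      commutes' := fun c => huniq fun x y => by
        rw [AlgHom.commutes, Module.algebraMap_end_apply, Module.algebraMap_end_apply, map_smul,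
          LinearMap.smul_apply, map_smul] }
  refine ⟨τ, ht, ?_⟩
  apply huniq
  intro x y
  have h0 := zeta_ne_zero D hs
  have h2 : y = D.φ D.ζ (D.φ D.ζ⁻¹ y) := by
    rw [← Module.End.mul_apply, ← map_mul, mul_inv_cancel₀ h0, map_one]; rfl
  conv_lhs => rw [h2]
  rw [D.hζ, hB, one_mul]

theorem exists_conj [Fintype F] [FiniteDimensional F U] [Nontrivial U] [Module.Finite F K]
    (D : FA s K) (hs : Function.Injective s)
    (hn : Nd B) (hsy : Sy B) (hB : Smi B 1 s) (h2 : s * s ≠ 1) :
    ∃ d, 0 < d ∧ finrank F K = 2 * d ∧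
      ∀ k x y, B (D.φ k x) y = B x (D.φ (k ^ (Fintype.card F ^ d)) y) := by
  obtain ⟨τ, hτ, hζ⟩ := exists_conj_hom D hs hn hsy hB
  have : Finite K := Module.finite_of_finite F
  obtain ⟨j, hj⟩ := (FiniteField.bijective_frobeniusAlgHom_pow F K).2 τ
  have hj' : ∀ k : K, τ k = k ^ (Fintype.card F ^ (j : ℕ)) := by
    intro k
    rw [← hj]
    change (FiniteField.frobeniusAlgHom F K ^ (j : ℕ)) k = _
    rw [AlgHom.coe_pow, FiniteField.coe_frobeniusAlgHom, pow_iterate]
  have hinj := D.phi_inj
  have hττ : ∀ k, τ (τ k) = k := by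
    intro k
    apply hinj
    apply phi_eq_of hn hsy
    intro x y
    rw [← hτ, hsy, ← hτ, hsy]
  have h4 : (FiniteField.frobeniusAlgHom F K) ^ (2 * (j : ℕ)) = 1 := by
    rw [two_mul, pow_add]
    have : (FiniteField.frobeniusAlgHom F K) ^ (j : ℕ) = τ := hj
    rw [this]
    ext k
    exact hττ k
  have h5 := orderOf_dvd_of_pow_eq_one h4
  rw [FiniteField.orderOf_frobeniusAlgHom] at h5
  have h6 : (j : ℕ) ≠ 0 := by
    intro h0
    apply h2
    have h7 : τ D.ζ = D.ζ := by rw [hj', h0, pow_zero, pow_one]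
    rw [hζ] at h7
    have h8 : D.ζ * D.ζ = 1 := by
      nth_rewrite 1 [← h7]
      exact inv_mul_cancel₀ (zeta_ne_zero D hs)
    rw [← D.hζ, ← map_mul, h8, map_one]
  have h7 := j.2
  obtain ⟨e, he⟩ := h5
  refine ⟨j, Nat.pos_of_ne_zero h6, ?_, fun k x y => by rw [hτ, hj']⟩
  have h8 : e = 1 := by
    have h9 : 0 < e := by
      rcases Nat.eq_zero_or_pos e with h | h
      · rw [h, mul_zero] at he; omega
      · exact h
    by_contra h10
    have h11 : 2 ≤ e := by omega
    have h12 : finrank F K * 2 ≤ finrank F K * e := Nat.mul_le_mul_left _ h11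
    omega
  rw [h8, mul_one] at he
  exact he.symm

end Conj

end Cfsg.Agent.H204
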